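import Cfsg.Agent.ZStar.Theorem
import Cfsg.Agent.PSLSmall.Five04
import Mathlib

/-!
# Automorphisms of 2-power order fixing an abelian Sylow 2-subgroup

In a finite simple group of even order with abelian Sylow 2-subgroup `S`, an automorphism of
2-power order fixing `S` pointwise is inner (transfer, Burnside and Glauberman's Z*-theorem).
-/

set_option autoImplicit false
set_option linter.style.haveILetI false

namespace CfsgLib.AbelianTwo

open Cfsg Subgroup

universe u

variable {L : Type u} [Group L] [Finite L] [IsSimpleGroup L]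

omit [Finite L] in
theorem conjHom_injective (hc : ¬ IsMulCommutative L) :
    Function.Injective (MulAut.conj : L →* MulAut L) := by
  rw [← MonoidHom.ker_eq_bot_iff]
  rcases IsSimpleGroup.eq_bot_or_eq_top_of_normal (MulAut.conj : L →* MulAut L).ker inferInstance
    with h | h
  · exact h
  · refine absurd ⟨⟨fun a b => ?_⟩⟩ hc
    have ha : MulAut.conj a = 1 := MonoidHom.mem_ker.mp (h ▸ mem_top a)
    have h' : a * b * a⁻¹ = b := DFunLike.congr_fun ha b
    exact mul_inv_eq_iff_eq_mul.mp h'

omit [Finite L] [IsSimpleGroup L] in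
theorem conj_apply_mul (φ : MulAut L) (a : L) :
    φ * MulAut.conj a * φ⁻¹ = MulAut.conj (φ a) := by
  ext x
  simp [MulAut.mul_apply, MulAut.conj_apply]

open scoped IsMulCommutative in
/-- An element of the group of a 2-power automorphism outside `Inn`, central in `N(T)`. -/
theorem exists_fixed_outside {X : Type*} [Group X] [Finite X] (T : Sylow 2 X)
    [IsMulCommutative (T : Subgroup X)] (Q : Subgroup X) [Q.Normal] (hQ : Q.index = 2)
    {p : X} (hp : p ∈ (T : Subgroup X)) (hpQ : p ∉ Q) :
    ∃ b ∈ (T : Subgroup X), b ∉ Q ∧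
      ∀ n ∈ normalizer ((T : Subgroup X) : Set X), n * b * n⁻¹ = b := by
  classical
  let N := normalizer ((T : Subgroup X) : Set X)
  let ρ : N →* MulAut (T : Subgroup X) := (T : Subgroup X).normalizerMonoidHom
  have hρ : ∀ (n : N) (x : (T : Subgroup X)),
      ((ρ n x : (T : Subgroup X)) : X) = (n : X) * (x : X) * (n : X)⁻¹ := fun n x => rfl
  letI : Fintype ρ.range := Fintype.ofFinite _
  have hodd : Odd (Fintype.card ρ.range) := by
    rw [← Nat.card_eq_fintype_card, ← Subgroup.index_ker]
    have hTN : (T : Subgroup X) ≤ N := le_normalizer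
    have hle : (T : Subgroup X).subgroupOf N ≤ ρ.ker := by
      intro n hn
      rw [MonoidHom.mem_ker]
      ext x
      rw [hρ, MulAut.one_apply]
      have h' : (n : X) * x = x * n :=
        congrArg Subtype.val (mul_comm (⟨(n : X), hn⟩ : (T : Subgroup X)) x)
      rw [h', mul_inv_cancel_right]
    have h1 : ρ.ker.index ∣ (T : Subgroup X).relIndex N := index_dvd_of_le hle
    have h2 : (T : Subgroup X).relIndex N ∣ (T : Subgroup X).index :=
      Dvd.intro _ (relIndex_mul_index hTN)
    rw [← Nat.not_even_iff_odd, even_iff_two_dvd]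
    exact fun h => T.not_dvd_index (h.trans (h1.trans h2))
  let bT : (T : Subgroup X) := ∏ r : ρ.range, (r : MulAut (T : Subgroup X)) ⟨p, hp⟩
  refine ⟨bT, bT.2, ?_, ?_⟩
  · -- modulo `Q`
    let f : (T : Subgroup X) →* X ⧸ Q := (QuotientGroup.mk' Q).comp (T : Subgroup X).subtype
    have hsq : ∀ y : X ⧸ Q, y ^ 2 = 1 := fun y => by
      rw [← hQ, Subgroup.index_eq_card]; exact pow_card_eq_one'
    have hcomm : ∀ a c : X ⧸ Q, a * c = c * a := fun a c => by
      have e : ∀ y : X ⧸ Q, y⁻¹ = y := fun y =>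
        inv_eq_of_mul_eq_one_right (by rw [← pow_two]; exact hsq y)
      rw [← e (a * c), mul_inv_rev, e a, e c]
    have hf : ∀ r : ρ.range, f ((r : MulAut (T : Subgroup X)) ⟨p, hp⟩) = f ⟨p, hp⟩ := by
      rintro ⟨_, n, rfl⟩
      show QuotientGroup.mk' Q ((n : X) * p * (n : X)⁻¹) = QuotientGroup.mk' Q p
      rw [map_mul, map_mul, map_inv, hcomm (QuotientGroup.mk' Q (n : X)), mul_inv_cancel_right]
    intro hb
    letI : CommGroup (X ⧸ Q) := { (inferInstance : Group (X ⧸ Q)) with mul_comm := hcomm }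
    have h1 : f bT = 1 := (QuotientGroup.eq_one_iff (bT : X)).mpr hb
    have h2 : f bT = f ⟨p, hp⟩ ^ Fintype.card ρ.range := by
      show f (∏ r : ρ.range, (r : MulAut (T : Subgroup X)) ⟨p, hp⟩) = _
      rw [map_prod, Finset.prod_congr rfl (fun r _ => hf r), Finset.prod_const, Finset.card_univ]
    obtain ⟨m, hm⟩ := hodd
    rw [hm, pow_succ, pow_mul, hsq, one_pow, one_mul] at h2
    exact hpQ ((QuotientGroup.eq_one_iff p).mp (h2.symm.trans h1))
  · intro n hn
    have hfix : ρ ⟨n, hn⟩ bT = bT := by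
      show ρ ⟨n, hn⟩ (∏ r : ρ.range, (r : MulAut (T : Subgroup X)) ⟨p, hp⟩) = _
      rw [map_prod]
      exact Fintype.prod_equiv (Equiv.mulLeft (⟨ρ ⟨n, hn⟩, _, rfl⟩ : ρ.range)) _ _ fun r => rfl
    exact congrArg Subtype.val hfix

/-- An automorphism of 2-power order fixing an abelian Sylow 2-subgroup is inner. -/
theorem exists_conj_of_fix (hc : ¬ IsMulCommutative L) (h2 : 2 ∣ Nat.card L) (S : Sylow 2 L)
    [IsMulCommutative (S : Subgroup L)] (k : ℕ) :
    ∀ φ : MulAut L, φ ^ 2 ^ k = 1 → (∀ s ∈ (S : Subgroup L), φ s = s) →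
      ∃ g : L, MulAut.conj g = φ := by
  induction k with
  | zero => exact fun φ h _ => ⟨1, by rw [map_one, ← h, pow_zero, pow_one]⟩
  | succ k ih =>
    intro φ hφ hfix
    obtain ⟨g, hg⟩ := ih (φ ^ 2) (by rw [← pow_mul, ← pow_succ']; exact hφ)
      (fun s hs => by rw [pow_two, MulAut.mul_apply, hfix s hs, hfix s hs])
    by_contra hout
    push Not at hout
    have hinj := conjHom_injective (L := L) hc
    -- `g` lies in `S`
    have hgS : g ∈ (S : Subgroup L) := by
      have hgfix : ∀ s ∈ (S : Subgroup L), g * s * g⁻¹ = s := fun s hs => by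
        have h' := DFunLike.congr_fun hg s
        rw [MulAut.conj_apply, pow_two, MulAut.mul_apply, hfix s hs, hfix s hs] at h'
        exact h'
      have hord : g ^ 2 ^ k = 1 := hinj (by rw [map_pow, hg, ← pow_mul, ← pow_succ', hφ, map_one])
      have hP : IsPGroup 2 (zpowers g) := by
        obtain ⟨m, -, hm⟩ := (Nat.dvd_prime_pow Nat.prime_two).1 (orderOf_dvd_of_pow_eq_one hord)
        exact IsPGroup.of_card (n := m) (by rw [Nat.card_zpowers, hm])
      have hn : zpowers g ≤ normalizer ((S : Subgroup L) : Set L) := by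
        refine zpowers_le.mpr ?_
        rw [mem_normalizer_iff]
        intro s
        refine ⟨fun hs => by rw [hgfix s hs]; exact hs, fun hs => ?_⟩
        have e : g * (g * s * g⁻¹) * g⁻¹ = g * s * g⁻¹ := hgfix _ hs
        have e' : g * s * g⁻¹ = s := by
          have := mul_left_cancel (mul_right_cancel e)
          exact this
        rwa [e'] at hs
      have h' := S.3 (IsPGroup.to_sup_of_normal_left' S.2 hP hn) le_sup_left
      exact h'.le (mem_sup_right (mem_zpowers g))
    -- the group `X = Inn(L)⟨φ⟩`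
    haveI hIn : (MulAut.conj : L →* MulAut L).range.Normal := ⟨by
      rintro _ ⟨a, rfl⟩ ψ
      exact ⟨ψ a, (conj_apply_mul ψ a).symm⟩⟩
    let X : Subgroup (MulAut L) := (MulAut.conj : L →* MulAut L).range ⊔ zpowers φ
    let ι : L →* X := (MulAut.conj : L →* MulAut L).codRestrict X
      (fun a => mem_sup_left ⟨a, rfl⟩)
    have hι : ∀ a, ((ι a : X) : MulAut L) = MulAut.conj a := fun a => rfl
    have hιinj : Function.Injective ι := fun a b h => hinj (congrArg Subtype.val h)
    let Φ : X := ⟨φ, mem_sup_right (mem_zpowers φ)⟩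
    let Q : Subgroup X := ι.range
    have hmemQ : ∀ x : X, x ∈ Q ↔ (x : MulAut L) ∈ (MulAut.conj : L →* MulAut L).range := by
      intro x
      constructor
      · rintro ⟨a, rfl⟩; exact ⟨a, rfl⟩
      · rintro ⟨a, ha⟩; exact ⟨a, Subtype.ext ha⟩
    haveI hQn : Q.Normal := ⟨fun x hx y => (hmemQ _).mpr (hIn.conj_mem _ ((hmemQ x).mp hx) _)⟩
    have hΦsq : Φ * Φ = ι g := Subtype.ext (by rw [hι, hg, pow_two]; rfl)
    have hΦQ : Φ ∉ Q := fun h => by
      obtain ⟨a, ha⟩ := (hmemQ Φ).mp h
      exact hout a ha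
    have hcases : ∀ x : X, x ∈ Q ∨ x * Φ⁻¹ ∈ Q := by
      intro x
      obtain ⟨y, hy, z, hz, hyz⟩ := mem_sup_of_normal_left.mp x.2
      obtain ⟨i, rfl⟩ := mem_zpowers_iff.mp hz
      obtain ⟨a, rfl⟩ := hy
      have h2i : ∀ j : ℤ, Φ ^ (2 * j) ∈ Q := fun j => by
        rw [zpow_mul, zpow_two, hΦsq]
        exact zpow_mem (show ι g ∈ Q from ⟨g, rfl⟩) j
      have hx : x = ι a * Φ ^ i := Subtype.ext (by rw [← hyz]; rfl)
      rcases Int.even_or_odd' i with ⟨j, rfl | rfl⟩
      · exact Or.inl (hx ▸ mul_mem ⟨a, rfl⟩ (h2i j))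
      · refine Or.inr ?_
        rw [hx, zpow_add_one, ← mul_assoc, mul_inv_cancel_right]
        exact mul_mem ⟨a, rfl⟩ (h2i j)
    have hQ2 : Q.index = 2 := by
      rw [index_eq_two_iff]
      refine ⟨Φ⁻¹, fun b => ?_⟩
      rw [xor_def]
      rcases hcases b with hb | hb
      · refine Or.inr ⟨hb, fun h => hΦQ ?_⟩
        have := mul_mem (inv_mem hb) h
        rw [inv_mul_cancel_left] at this
        exact inv_mem_iff.mp this
      · refine Or.inl ⟨hb, fun h => hΦQ ?_⟩
        have := mul_mem (inv_mem h) hb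
        rw [inv_mul_cancel_left] at this
        exact inv_mem_iff.mp this
    -- the Sylow subgroup
    let S' : Subgroup X := (S : Subgroup L).map ι
    have hS'2 : IsPGroup 2 S' := S.2.map ι
    have hΦS : ∀ s ∈ (S : Subgroup L), Φ * ι s = ι s * Φ := fun s hs => by
      have h' := conj_apply_mul φ s
      rw [hfix s hs, mul_inv_eq_iff_eq_mul] at h'
      exact Subtype.ext h'
    have hΦ2 : IsPGroup 2 (zpowers Φ) := by
      have hpow : Φ ^ 2 ^ (k + 1) = 1 := Subtype.ext (by rw [SubmonoidClass.coe_pow]; exact hφ)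
      obtain ⟨m, -, hm⟩ := (Nat.dvd_prime_pow Nat.prime_two).1 (orderOf_dvd_of_pow_eq_one hpow)
      exact IsPGroup.of_card (n := m) (by rw [Nat.card_zpowers, hm])
    have hΦn : zpowers Φ ≤ normalizer (S' : Set X) := by
      refine le_trans ?_ (centralizer_le_normalizer (S' : Set X))
      refine zpowers_le.mpr ?_
      rw [mem_centralizer_iff]
      rintro _ ⟨s, hs, rfl⟩
      exact (hΦS s hs).symm
    obtain ⟨T, hT⟩ := (IsPGroup.to_sup_of_normal_left' hS'2 hΦ2 hΦn).exists_le_sylow
    have hΦT : Φ ∈ (T : Subgroup X) := hT (mem_sup_right (mem_zpowers Φ))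
    have hS'T : ∀ s ∈ (S : Subgroup L), ι s ∈ (T : Subgroup X) := fun s hs =>
      hT (mem_sup_left ⟨s, hs, rfl⟩)
    have hTQ : ∀ a, ι a ∈ (T : Subgroup X) → a ∈ (S : Subgroup L) := by
      intro a ha
      have hP : IsPGroup 2 ((T : Subgroup X).comap ι) := T.2.comap_of_injective ι hιinj
      exact (S.3 hP (fun s hs => hS'T s hs)).le ha
    haveI : IsMulCommutative (T : Subgroup X) := by
      have hform : ∀ x ∈ (T : Subgroup X), ∃ a ∈ (S : Subgroup L), x = ι a ∨ x = ι a * Φ := by
        intro x hx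
        rcases hcases x with ⟨a, ha⟩ | ⟨a, ha⟩
        · exact ⟨a, hTQ a (by rw [ha]; exact hx), Or.inl ha.symm⟩
        · exact ⟨a, hTQ a (by rw [ha]; exact mul_mem hx (inv_mem hΦT)), Or.inr (by rw [ha, inv_mul_cancel_right])⟩
      have hSS : ∀ a ∈ (S : Subgroup L), ∀ b ∈ (S : Subgroup L), ι a * ι b = ι b * ι a := by
        intro a ha b hb
        rw [← map_mul, ← map_mul]
        exact congrArg ι (congrArg Subtype.val
          (IsMulCommutative.is_comm.comm (⟨a, ha⟩ : (S : Subgroup L)) ⟨b, hb⟩))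
      refine ⟨⟨fun ⟨x, hx⟩ ⟨y, hy⟩ => Subtype.ext ?_⟩⟩
      show x * y = y * x
      obtain ⟨a, ha, ha'⟩ := hform x hx
      obtain ⟨b, hb, hb'⟩ := hform y hy
      have c1 : Commute (ι a) (ι b) := hSS a ha b hb
      have c2 : Commute Φ (ι a) := hΦS a ha
      have c3 : Commute Φ (ι b) := hΦS b hb
      rcases ha' with rfl | rfl <;> rcases hb' with rfl | rfl
      · exact c1
      · exact c1.mul_right c2.symm
      · exact Commute.mul_left c1 c3
      · exact Commute.mul_left (c1.mul_right c2.symm) (c3.mul_right (Commute.refl Φ))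
    obtain ⟨b, hbT, hbQ, hbN⟩ := exists_fixed_outside T Q hQ2 hΦT hΦQ
    -- `b` is an involution
    have hbb : b * b = 1 := by
      have hbq : b * b ∈ Q := Subgroup.mul_self_mem_of_index_two hQ2 b
      obtain ⟨s, hs⟩ := hbq
      have hsS : s ∈ (S : Subgroup L) := hTQ s (by rw [hs]; exact mul_mem hbT hbT)
      have hs1 : s = 1 := by
        refine PSLSmall.eq_one_of_central_normalizer hc S hsS fun n hn => ?_
        let C : Subgroup X := centralizer (S' : Set X)
        have hTC : (T : Subgroup X) ≤ C := fun x hx => by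
          rw [mem_centralizer_iff]
          rintro _ ⟨a, ha, rfl⟩
          exact congrArg Subtype.val (IsMulCommutative.is_comm.comm
            (⟨ι a, hS'T a ha⟩ : (T : Subgroup X)) ⟨x, hx⟩)
        have hTC2 : ((ι n • T : Sylow 2 X) : Subgroup X) ≤ C := by
          rintro x hx
          rw [Sylow.coe_subgroup_smul, mem_pointwise_smul_iff_inv_smul_mem, ← map_inv,
            MulAut.smul_def, MulAut.conj_apply, inv_inv] at hx
          rw [mem_centralizer_iff]
          rintro _ ⟨a, ha, rfl⟩
          have ha' : n⁻¹ * a * n ∈ (S : Subgroup L) := by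
            have h3 := (mem_normalizer_iff.mp (inv_mem hn) a).mp ha
            rwa [inv_inv] at h3
          have h4 := mem_centralizer_iff.mp (hTC hx) (ι (n⁻¹ * a * n)) ⟨_, ha', rfl⟩
          simp only [map_mul, map_inv] at h4
          calc ι a * x = ι n * ((ι n)⁻¹ * ι a * ι n * ((ι n)⁻¹ * x * ι n)) * (ι n)⁻¹ := by group
            _ = ι n * (((ι n)⁻¹ * x * ι n) * ((ι n)⁻¹ * ι a * ι n)) * (ι n)⁻¹ := by rw [h4]
            _ = x * ι a := by group
        obtain ⟨c, hc'⟩ := MulAction.exists_smul_eq C ((ι n • T).subtype hTC2) (T.subtype hTC)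
        simp_rw [Sylow.smul_subtype, Subgroup.smul_def, smul_smul] at hc'
        have hm : (c : X) * ι n ∈ normalizer ((T : Subgroup X) : Set X) :=
          Sylow.smul_eq_iff_mem_normalizer.mp (Sylow.subtype_injective hc')
        have h1 := hbN _ hm
        have hbs : (c : X) * ι n * (b * b) * ((c : X) * ι n)⁻¹ = b * b := by
          rw [show (c : X) * ι n * (b * b) * ((c : X) * ι n)⁻¹ =
            ((c : X) * ι n * b * ((c : X) * ι n)⁻¹) * ((c : X) * ι n * b * ((c : X) * ι n)⁻¹) by group, h1]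
        rw [← hs] at hbs
        have hns : n * s * n⁻¹ ∈ (S : Subgroup L) := (mem_normalizer_iff.mp hn s).mp hsS
        have hcc := mem_centralizer_iff.mp c.2 (ι (n * s * n⁻¹)) ⟨_, hns, rfl⟩
        have h5 : ι (n * s * n⁻¹) = ι s := by
          calc ι (n * s * n⁻¹) = ι (n * s * n⁻¹) * (c : X) * (c : X)⁻¹ := by group
            _ = (c : X) * ι (n * s * n⁻¹) * (c : X)⁻¹ := by rw [hcc]
            _ = ι s := by
              simp only [map_mul, map_inv]
              conv_rhs => rw [← hbs]
              group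
        exact mul_inv_eq_iff_eq_mul.mp (hιinj h5)
      rw [← hs, hs1, map_one]
    have hb1 : b ≠ 1 := fun h => hbQ (h ▸ one_mem Q)
    have hord : orderOf b = 2 := orderOf_eq_prime (by rw [pow_two, hbb]) hb1
    -- `b` is isolated
    have hz := CfsgLib.ZStar.inZStar_of_no_fusion hord T fun x hx => by
      obtain ⟨n, hn, h'⟩ := T.conj_eq_normalizer_conj_of_mem b x⁻¹ hbT (by rwa [inv_inv])
      rw [inv_inv] at h'
      rw [h']
      have := hbN n⁻¹ (inv_mem hn)
      rwa [inv_inv] at this
    -- the odd core of `X` is trivial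
    have hO : pPrimeCore 2 X = ⊥ := by
      have hK : (pPrimeCore 2 X).comap ι = ⊥ := by
        refine (IsSimpleGroup.eq_bot_or_eq_top_of_normal _ inferInstance).resolve_right fun h => ?_
        have hle : Q ≤ pPrimeCore 2 X := by
          rintro _ ⟨a, rfl⟩
          exact (h ▸ mem_top a : a ∈ (pPrimeCore 2 X).comap ι)
        refine Constrained.pPrimeCore_not_dvd (G := X) (p := 2) (h2.trans ?_)
        rw [Nat.card_congr (MonoidHom.ofInjective hιinj).toEquiv]
        exact card_dvd_of_le hle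
      refine le_bot_iff.mp fun x hx => ?_
      rw [mem_bot]
      refine Subtype.ext (DFunLike.ext _ _ fun a => ?_)
      show (x : MulAut L) a = a
      have hxa : x * ι a * x⁻¹ = ι ((x : MulAut L) a) := Subtype.ext (conj_apply_mul (x : MulAut L) a)
      have hm : a⁻¹ * (x : MulAut L) a ∈ (pPrimeCore 2 X).comap ι := by
        rw [mem_comap, map_mul, map_inv, ← hxa,
          show (ι a)⁻¹ * (x * ι a * x⁻¹) = ((ι a)⁻¹ * x * ι a) * x⁻¹ by group]
        refine mul_mem ?_ (inv_mem hx)
        simpa using (inferInstance : (pPrimeCore 2 X).Normal).conj_mem x hx (ι a)⁻¹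
      rw [hK, mem_bot, inv_mul_eq_one] at hm
      exact hm.symm
    refine hb1 (Subtype.ext (DFunLike.ext _ _ fun a => ?_))
    show (b : MulAut L) a = a
    have h1 := hz (ι a)
    rw [hO, mem_bot, mul_inv_eq_one, mul_inv_eq_iff_eq_mul] at h1
    have h2' : b * ι a * b⁻¹ = ι a := by rw [← h1, mul_inv_cancel_right]
    have h3 : ι ((b : MulAut L) a) = ι a := by
      rw [← h2']; exact Subtype.ext (conj_apply_mul (b : MulAut L) a).symm
    exact hιinj h3

end CfsgLib.AbelianTwo
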